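import Mathlib
import Cfsg.Agent.L33.FrM

/-!
Block embeddings of small matrix groups over the field with three elements.
-/

set_option autoImplicit false

namespace Cfsg.Agent.L3S

open Matrix

/-- The field. -/
abbrev F3 : Type := ZMod 3
/-- `SL₂(3)`. -/
abbrev SL2 : Type := SpecialLinearGroup (Fin 2) F3
/-- `GL₂(3)`. -/
abbrev GL2 : Type := GL (Fin 2) F3
/-- `SL₃(3)`. -/
abbrev SL3 : Type := L33.FrmS
/-- `Sp₄(3)`. -/
abbrev Sp4 : Type := symplecticGroup (Fin 2) F3
/-- `Sp₆(3)`. -/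
abbrev Sp6 : Type := symplecticGroup (Fin 3) F3

theorem det_sq (g : GL2) : g.1.det * g.1.det = 1 := by
  have h : ∀ x : F3, x ≠ 0 → x * x = 1 := by decide
  exact h _ g.det_ne_zero

/-- The matrix `diag (m, c)`. -/
def blkM (m : Matrix (Fin 2) (Fin 2) F3) (c : F3) : Matrix (Fin 3) (Fin 3) F3 :=
  !![m 0 0, m 0 1, 0; m 1 0, m 1 1, 0; 0, 0, c]

theorem blkM_mul (m n : Matrix (Fin 2) (Fin 2) F3) (c e : F3) : blkM (m * n) (c * e) = blkM m c * blkM n e := by
  ext i j; fin_cases i <;> fin_cases j <;> simp [blkM, mul_apply, Fin.sum_univ_succ]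

/-- The matrix `diag (1, m)`. -/
def lowM (m : Matrix (Fin 2) (Fin 2) F3) : Matrix (Fin 3) (Fin 3) F3 :=
  !![1, 0, 0; 0, m 0 0, m 0 1; 0, m 1 0, m 1 1]

theorem lowM_mul (m n : Matrix (Fin 2) (Fin 2) F3) : lowM (m * n) = lowM m * lowM n := by
  ext i j; fin_cases i <;> fin_cases j <;> simp [lowM, mul_apply, Fin.sum_univ_succ]

/-- `g ↦ diag (g, det g)`, onto the centraliser of `z = diag (-1, -1, 1)`. -/
def blk : GL2 →* SL3 := MonoidHom.mk' (fun g => ⟨blkM g.1 g.1.det, by
    rw [← det_sq g, det_fin_three]; simp [blkM, det_fin_two]; ring⟩) fun g h => Subtype.ext (by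
  show blkM (g.1 * h.1) (g.1 * h.1).det = _
  rw [det_mul, blkM_mul]; rfl)

/-- `g ↦ diag (1, g)`. -/
def low : SL2 →* SL3 := MonoidHom.mk' (fun g => ⟨lowM g.1, by
    have := g.2
    rw [det_fin_two] at this
    simpa [lowM, det_fin_three] using this⟩) fun g h => Subtype.ext (lowM_mul g.1 h.1)

/-- `g ↦ det g • diag (g, g⁻¹ᵀ)`, onto the Siegel Levi subgroup. -/
def lev : GL2 →* Sp4 := MonoidHom.mk' (fun g => ⟨fromBlocks (g.1.det • g.1) 0 0 g.1.adjugateᵀ, by
    rw [SymplecticGroup.mem_iff]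
    simp [J, fromBlocks_multiply, fromBlocks_transpose, mul_adjugate, ← transpose_mul, smul_smul, det_sq]⟩)
  fun g h => Subtype.ext (by
    simp [fromBlocks_multiply, adjugate_mul_distrib, smul_smul, mul_comm])

/-- `SL₂(3)` acting on the hyperbolic plane number `0`. -/
def lng0 : SL2 →* Sp4 := MonoidHom.mk' (fun g => ⟨fromBlocks !![g.1 0 0, 0; 0, 1] !![g.1 0 1, 0; 0, 0]
    !![g.1 1 0, 0; 0, 0] !![g.1 1 1, 0; 0, 1], by
    have := g.2
    rw [det_fin_two] at this
    rw [SymplecticGroup.mem_iff]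
    ext i j
    rcases i with i | i <;> rcases j with j | j <;> fin_cases i <;> fin_cases j <;>
      simp [J, mul_apply, Fin.sum_univ_succ, one_apply] <;>
      first | linear_combination this | linear_combination -this | ring1⟩)
  fun g h => Subtype.ext (by
    ext i j
    rcases i with i | i <;> rcases j with j | j <;> fin_cases i <;> fin_cases j <;>
      simp [mul_apply, Fin.sum_univ_succ])

/-- `SL₂(3)` acting on the hyperbolic plane number `1`. -/
def lng1 : SL2 →* Sp4 := MonoidHom.mk' (fun g => ⟨fromBlocks !![1, 0; 0, g.1 0 0] !![0, 0; 0, g.1 0 1]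
    !![0, 0; 0, g.1 1 0] !![1, 0; 0, g.1 1 1], by
    have := g.2
    rw [det_fin_two] at this
    rw [SymplecticGroup.mem_iff]
    ext i j
    rcases i with i | i <;> rcases j with j | j <;> fin_cases i <;> fin_cases j <;>
      simp [J, mul_apply, Fin.sum_univ_succ, one_apply] <;>
      first | linear_combination this | linear_combination -this | ring1⟩)
  fun g h => Subtype.ext (by
    ext i j
    rcases i with i | i <;> rcases j with j | j <;> fin_cases i <;> fin_cases j <;>
      simp [mul_apply, Fin.sum_univ_succ])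

/-- The matrix `diag (1, 1, -1, -1)`. -/
def TT : Matrix (Fin 2 ⊕ Fin 2) (Fin 2 ⊕ Fin 2) F3 := fromBlocks 1 0 0 (-1)

theorem TT_sq : TT * TT = 1 := by simp [TT, fromBlocks_multiply]

/-- Conjugation by `diag (1, 1, -1, -1)`. -/
def tau : Sp4 →* Sp4 := MonoidHom.mk' (fun x => ⟨TT * x.1 * TT, by
    have h1 : TT * J (Fin 2) F3 * TT = -J (Fin 2) F3 := by simp [TT, J, fromBlocks_multiply, fromBlocks_neg]
    have h2 : TTᵀ = TT := by simp [TT, fromBlocks_transpose]
    have h3 := SymplecticGroup.mem_iff.1 x.2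
    rw [SymplecticGroup.mem_iff, transpose_mul, transpose_mul, h2]
    calc _ = TT * (x.1 * (TT * J (Fin 2) F3 * TT) * x.1ᵀ) * TT := by simp only [Matrix.mul_assoc]
      _ = _ := by rw [h1, Matrix.mul_neg, Matrix.neg_mul, h3, Matrix.mul_neg, Matrix.neg_mul, h1, neg_neg]⟩)
  fun x y => Subtype.ext (by
    show TT * (x.1 * y.1) * TT = TT * x.1 * TT * (TT * y.1 * TT)
    simp only [Matrix.mul_assoc]
    rw [← Matrix.mul_assoc TT TT, TT_sq, Matrix.one_mul])

/-- The involution `z = diag (-1, -1, 1)`. -/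
def frmZ : SL3 := ⟨!![2, 0, 0; 0, 2, 0; 0, 0, 1], by decide⟩

theorem frmA_pow_four : L33.frmA ^ 4 = frmZ := by decide

theorem blk_neg_one : blk (-1) = frmZ := Subtype.ext (by
  ext i j; fin_cases i <;> fin_cases j <;> simp [blk, blkM, frmZ] <;> rfl)

end Cfsg.Agent.L3S
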