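import Mathlib

/-!
The `2`-group `M6` of order `2 ^ 10`: the Sylow `2`-subgroup of `PGSp₆(3)`.  It is the quotient of
`(Q₈ × Q₈ × Q₈) ⋊ ⟨d, t⟩` by `(-1, -1, -1)`; the sign of the first factor is normalised to `+`.
-/

set_option autoImplicit false

namespace Cfsg.Agent.L3S

/-- The quaternion group: `i ^ x j ^ y (-1) ^ w`. -/
@[ext] structure Q8 : Type where
  x : Bool
  y : Bool
  w : Bool
  deriving DecidableEq

namespace Q8

theorem forall_iff {P : Q8 → Prop} : (∀ q, P q) ↔ ∀ x y w, P ⟨x, y, w⟩ := ⟨fun h _ _ _ => h _, fun h q => h q.x q.y q.w⟩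

instance {P : Q8 → Prop} [DecidablePred P] : Decidable (∀ q, P q) := decidable_of_iff _ forall_iff.symm

instance : Mul Q8 := ⟨fun a b =>
  ⟨xor a.x b.x, xor a.y b.y, xor (xor a.w b.w) (xor (a.x && b.x) (a.y && xor b.x b.y))⟩⟩

instance : One Q8 := ⟨⟨false, false, false⟩⟩

instance : Inv Q8 := ⟨fun a => ⟨a.x, a.y, xor a.w (a.x || a.y)⟩⟩

instance : Group Q8 := Group.ofLeftAxioms (by decide) (by decide) (by decide)

/-- Multiplication by a sign. -/
def sg (s : Bool) (a : Q8) : Q8 := ⟨a.x, a.y, xor a.w s⟩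

/-- The automorphism `i ↦ i⁻¹`, `j ↦ i j`, or the identity. -/
def dl (e : Bool) (a : Q8) : Q8 := ⟨xor a.x (e && a.y), a.y, xor a.w (e && (a.x && !a.y))⟩

/-- The automorphism `i ↦ i j`, `j ↦ j⁻¹`, or the identity. -/
def gm (s : Bool) (a : Q8) : Q8 := ⟨a.x, xor a.y (s && a.x), xor a.w (s && (a.y && !a.x))⟩

theorem dl_mul : ∀ e a b, dl e (a * b) = dl e a * dl e b := by decide
theorem gm_mul : ∀ e a b, gm e (a * b) = gm e a * gm e b := by decide
theorem dl_dl : ∀ e e' a, dl e (dl e' a) = dl (xor e e') a := by decide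
theorem gm_gm : ∀ e e' a, gm e (gm e' a) = gm (xor e e') a := by decide

end Q8

open Q8

/-- The group `(Q₈ × Q₈ × Q₈) ⋊ ⟨d, t⟩`. -/
@[ext] structure MT : Type where
  q1 : Q8
  q2 : Q8
  q3 : Q8
  e : Bool
  s : Bool

instance : Mul MT := ⟨fun a b => ⟨a.q1 * gm a.s b.q1, a.q2 * dl a.e (cond (xor a.e a.s) b.q3 b.q2),
  a.q3 * dl a.e (cond (xor a.e a.s) b.q2 b.q3), xor a.e b.e, xor a.s b.s⟩⟩

theorem MT.mul_def (a b : MT) : a * b = ⟨a.q1 * gm a.s b.q1, a.q2 * dl a.e (cond (xor a.e a.s) b.q3 b.q2),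
  a.q3 * dl a.e (cond (xor a.e a.s) b.q2 b.q3), xor a.e b.e, xor a.s b.s⟩ := rfl

theorem MT.assoc (a b c : MT) : a * b * c = a * (b * c) := by
  obtain ⟨_, _, _, _ | _, _ | _⟩ := a <;> obtain ⟨_, _, _, _ | _, _ | _⟩ := b <;>
    simp [MT.mul_def, dl_mul, gm_mul, dl_dl, gm_gm, mul_assoc]

/-- The Sylow `2`-subgroup of `PGSp₆(3)`: the element `(i ^ x j ^ y, q2, q3) d ^ e t ^ s`. -/
@[ext] structure M6 : Type where
  x : Bool
  y : Bool
  q2 : Q8
  q3 : Q8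
  e : Bool
  s : Bool
  deriving DecidableEq

namespace M6

theorem forall_iff {P : M6 → Prop} : (∀ g, P g) ↔ ∀ x y q2 q3 e s, P ⟨x, y, q2, q3, e, s⟩ :=
  ⟨fun h _ _ _ _ _ _ => h _, fun h g => h g.x g.y g.q2 g.q3 g.e g.s⟩

instance {P : M6 → Prop} [DecidablePred P] : Decidable (∀ g, P g) := decidable_of_iff _ forall_iff.symm

instance {P : M6 → Prop} [DecidablePred P] : Decidable (∃ g, P g) :=
  decidable_of_iff (¬ ∀ g, ¬ P g) (by simp)

/-- The normal form. -/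
def nf (a : MT) : M6 := ⟨a.q1.x, a.q1.y, sg a.q1.w a.q2, sg a.q1.w a.q3, a.e, a.s⟩

/-- The lift. -/
def up (a : M6) : MT := ⟨⟨a.x, a.y, false⟩, a.q2, a.q3, a.e, a.s⟩

instance : Mul M6 := ⟨fun a b => nf (up a * up b)⟩

instance : One M6 := ⟨⟨false, false, 1, 1, false, false⟩⟩

instance : Inv M6 := ⟨fun a => nf ⟨gm a.s (⟨a.x, a.y, false⟩ : Q8)⁻¹, dl a.e (cond (xor a.e a.s) a.q3 a.q2)⁻¹,
  dl a.e (cond (xor a.e a.s) a.q2 a.q3)⁻¹, a.e, a.s⟩⟩

theorem nf_up (a : M6) : nf (up a) = a := by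
  ext <;> simp [nf, up, sg]

theorem nf_mul (a b : MT) : nf (a * b) = nf a * nf b := by
  have h1 : ∀ s (p q : Q8), ((⟨p.x, p.y, false⟩ : Q8) * gm s ⟨q.x, q.y, false⟩).x = (p * gm s q).x ∧
      ((⟨p.x, p.y, false⟩ : Q8) * gm s ⟨q.x, q.y, false⟩).y = (p * gm s q).y ∧
      ((⟨p.x, p.y, false⟩ : Q8) * gm s ⟨q.x, q.y, false⟩).w = xor (p * gm s q).w (xor p.w q.w) := by decide
  have h2 : ∀ e u v w (p q : Q8), sg (xor w (xor u v)) (sg u p * dl e (sg v q)) = sg w (p * dl e q) := by decide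
  obtain ⟨p, _, _, _ | _, _ | _⟩ := a <;> obtain ⟨q, _, _, _, _⟩ := b <;> show _ = nf (_ * _) <;>
    simp only [MT.mul_def, nf, up, h1, h2, Bool.xor_self, Bool.false_xor, Bool.xor_false, cond_true, cond_false]

instance : Group M6 := Group.ofLeftAxioms
  (fun a b c => by rw [← nf_up a, ← nf_up b, ← nf_up c, ← nf_mul, ← nf_mul, ← nf_mul, ← nf_mul, MT.assoc])
  (by decide +kernel) (by decide +kernel)

/-- Coordinates. -/
def equivProd : M6 ≃ (Bool × Bool) × (Bool × Bool × Bool) × (Bool × Bool × Bool) × Bool × Bool where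
  toFun g := ((g.x, g.y), (g.q2.x, g.q2.y, g.q2.w), (g.q3.x, g.q3.y, g.q3.w), g.e, g.s)
  invFun v := ⟨v.1.1, v.1.2, ⟨v.2.1.1, v.2.1.2.1, v.2.1.2.2⟩, ⟨v.2.2.1.1, v.2.2.1.2.1, v.2.2.1.2.2⟩, v.2.2.2.1, v.2.2.2.2⟩
  left_inv _ := rfl
  right_inv _ := rfl

instance : Fintype M6 := Fintype.ofEquiv _ equivProd.symm

theorem card : Nat.card M6 = 2 ^ 10 := by
  rw [Nat.card_congr equivProd]; simp

theorem isPGroup : IsPGroup 2 M6 := .of_card card

/-- `-1`. -/
def n1 : Q8 := ⟨false, false, true⟩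
/-- `i`. -/
def qi : Q8 := ⟨true, false, false⟩
/-- `j`. -/
def qj : Q8 := ⟨false, true, false⟩

/-- The central involution `z = z₁ = z₂ z₃`. -/
def z : M6 := ⟨false, false, n1, n1, false, false⟩
/-- The centre of `Q₂`. -/
def z2 : M6 := ⟨false, false, n1, 1, false, false⟩
/-- The centre of `Q₃`. -/
def z3 : M6 := ⟨false, false, 1, n1, false, false⟩
/-- A generator of `Q₁`. -/
def i1 : M6 := ⟨true, false, 1, 1, false, false⟩
/-- A generator of `Q₁`. -/
def j1 : M6 := ⟨false, true, 1, 1, false, false⟩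
/-- A generator of `Q₂`. -/
def i2 : M6 := ⟨false, false, qi, 1, false, false⟩
/-- A generator of `Q₂`. -/
def j2 : M6 := ⟨false, false, qj, 1, false, false⟩
/-- A generator of `Q₃`. -/
def i3 : M6 := ⟨false, false, 1, qi, false, false⟩
/-- A generator of `Q₃`. -/
def j3 : M6 := ⟨false, false, 1, qj, false, false⟩
/-- The involution `d`. -/
def d : M6 := ⟨false, false, 1, 1, true, false⟩
/-- The involution `t`. -/
def t : M6 := ⟨false, false, 1, 1, false, true⟩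
/-- The element `a = j₂ j₃ d` of order eight. -/
def a : M6 := ⟨false, false, qj, qj, true, false⟩
/-- The involution `f = j₁ i₂ i₃⁻¹`. -/
def f : M6 := ⟨false, true, qi, qi⁻¹, false, false⟩

section
variable (g h : M6)
theorem mul_x : (g * h).x = xor g.x h.x := rfl
theorem mul_y : (g * h).y = xor g.y (xor h.y (g.s && h.x)) := rfl
theorem mul_e : (g * h).e = xor g.e h.e := rfl
theorem mul_s : (g * h).s = xor g.s h.s := rfl
theorem mul_2x : (g * h).q2.x = xor g.q2.x (xor (cond (xor g.e g.s) h.q3 h.q2).x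
  (g.e && (cond (xor g.e g.s) h.q3 h.q2).y)) := rfl
theorem mul_2y : (g * h).q2.y = xor g.q2.y (cond (xor g.e g.s) h.q3 h.q2).y := rfl
theorem mul_3x : (g * h).q3.x = xor g.q3.x (xor (cond (xor g.e g.s) h.q2 h.q3).x
  (g.e && (cond (xor g.e g.s) h.q2 h.q3).y)) := rfl
theorem mul_3y : (g * h).q3.y = xor g.q3.y (cond (xor g.e g.s) h.q2 h.q3).y := rfl
end

/-- `S ∩ X = Q₁ Q₂ Q₃ ⟨d⟩`, of order `2 ^ 9`. -/
def SX : Subgroup M6 where
  carrier := {g | g.s = false}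
  one_mem' := rfl
  mul_mem' ha hb := by simp_all [mul_s]
  inv_mem' := by decide +kernel +revert

/-- `E₁ = Q₁ Q₂ Q₃`, of order `2 ^ 8`. -/
def E1 : Subgroup M6 where
  carrier := {g | g.s = false ∧ g.e = false}
  one_mem' := ⟨rfl, rfl⟩
  mul_mem' ha hb := by simp_all [mul_s, mul_e]
  inv_mem' := by decide +kernel +revert

/-- `T = Q₂ Q₃ ⟨d⟩ ≅ Q₈ ≀ 2`, of order `2 ^ 7`. -/
def T : Subgroup M6 where
  carrier := {g | g.s = false ∧ g.x = false ∧ g.y = false}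
  one_mem' := ⟨rfl, rfl, rfl⟩
  mul_mem' ha hb := by simp_all [mul_s, mul_x, mul_y]
  inv_mem' := by decide +kernel +revert

/-- `E₂ = Q₁ W`, extraspecial of order `2 ^ 7`. -/
def E2 : Subgroup M6 where
  carrier := {g | g.s = false ∧ g.q3.y = g.q2.y ∧ g.q3.x = xor g.q2.x g.q2.y}
  one_mem' := ⟨rfl, rfl, rfl⟩
  mul_mem' := by
    rintro g h ⟨a1, a2, a3⟩ ⟨b1, b2, b3⟩
    refine ⟨by simp_all [mul_s], ?_, ?_⟩ <;> simp only [mul_2x, mul_2y, mul_3x, mul_3y, a1] <;> cases g.e <;>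
      simp only [a2, a3, b2, b3, Bool.xor_false, cond_true, cond_false] <;>
      cases g.q2.x <;> cases g.q2.y <;> cases h.q2.x <;> cases h.q2.y <;> rfl
  inv_mem' := by decide +kernel +revert

/-- `W = E₂ ∩ T`, extraspecial of order `2 ^ 5` and minus type. -/
def W : Subgroup M6 := E2 ⊓ T

/-- `Q₁ U'`, of order sixteen. -/
def Q1U : Subgroup M6 where
  carrier := {g | g.s = false ∧ g.e = false ∧ g.q2.x = false ∧ g.q2.y = false ∧ g.q3.x = false ∧ g.q3.y = false}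
  one_mem' := ⟨rfl, rfl, rfl, rfl, rfl, rfl⟩
  mul_mem' ha hb := by simp_all [mul_s, mul_e, mul_2x, mul_2y, mul_3x, mul_3y]
  inv_mem' := by decide +kernel +revert

/-- `Q₂ U'`, of order sixteen. -/
def Q2U : Subgroup M6 where
  carrier := {g | g.s = false ∧ g.e = false ∧ g.x = false ∧ g.y = false ∧ g.q3.x = false ∧ g.q3.y = false}
  one_mem' := ⟨rfl, rfl, rfl, rfl, rfl, rfl⟩
  mul_mem' ha hb := by simp_all [mul_s, mul_e, mul_x, mul_y, mul_3x, mul_3y]
  inv_mem' := by decide +kernel +revert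

/-- `Q₃ U'`, of order sixteen. -/
def Q3U : Subgroup M6 where
  carrier := {g | g.s = false ∧ g.e = false ∧ g.x = false ∧ g.y = false ∧ g.q2.x = false ∧ g.q2.y = false}
  one_mem' := ⟨rfl, rfl, rfl, rfl, rfl, rfl⟩
  mul_mem' ha hb := by simp_all [mul_s, mul_e, mul_x, mul_y, mul_2x, mul_2y]
  inv_mem' := by decide +kernel +revert

/-- `U' = ⟨z, z₂⟩ = Z(E₁)`. -/
def U : Subgroup M6 := Q1U ⊓ T

/-- `Q₁ = Q₁ U' ∩ C(d)`. -/
def Q1 : Subgroup M6 := Q1U ⊓ Subgroup.centralizer {d}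

instance : DecidablePred (· ∈ SX) := fun g => inferInstanceAs (Decidable (g.s = false))
instance : DecidablePred (· ∈ E1) := fun g => inferInstanceAs (Decidable (g.s = false ∧ g.e = false))
instance : DecidablePred (· ∈ T) := fun g => inferInstanceAs (Decidable (g.s = false ∧ g.x = false ∧ g.y = false))
instance : DecidablePred (· ∈ E2) := fun g =>
  inferInstanceAs (Decidable (g.s = false ∧ g.q3.y = g.q2.y ∧ g.q3.x = xor g.q2.x g.q2.y))
instance : DecidablePred (· ∈ W) := fun g => inferInstanceAs (Decidable (g ∈ E2 ∧ g ∈ T))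
instance : DecidablePred (· ∈ Q1U) := fun g => inferInstanceAs (Decidable (g.s = false ∧ g.e = false ∧
  g.q2.x = false ∧ g.q2.y = false ∧ g.q3.x = false ∧ g.q3.y = false))
instance : DecidablePred (· ∈ Q2U) := fun g => inferInstanceAs (Decidable (g.s = false ∧ g.e = false ∧
  g.x = false ∧ g.y = false ∧ g.q3.x = false ∧ g.q3.y = false))
instance : DecidablePred (· ∈ Q3U) := fun g => inferInstanceAs (Decidable (g.s = false ∧ g.e = false ∧
  g.x = false ∧ g.y = false ∧ g.q2.x = false ∧ g.q2.y = false))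
instance : DecidablePred (· ∈ U) := fun g => inferInstanceAs (Decidable (g ∈ Q1U ∧ g ∈ T))
instance : DecidablePred (· ∈ Q1) := fun g =>
  decidable_of_iff (g ∈ Q1U ∧ g * d = d * g) (and_congr_right fun _ => Subgroup.mem_centralizer_singleton_iff.symm)

theorem mem_U : ∀ g, g ∈ U ↔ g = 1 ∨ g = z ∨ g = z2 ∨ g = z3 := by decide +kernel

theorem z_comm : ∀ g, g * z = z * g := by decide +kernel

theorem eq_z : ∀ g ∈ SX, g * i1 = i1 * g → g * j1 = j1 * g → g * i2 = i2 * g → g * j2 = j2 * g → g * d = d * g →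
    g = 1 ∨ g = z := by decide +kernel

theorem letters : a ^ 2 = i2 * i3 ∧ a * d = j2 * j3 ∧ a ^ 4 = z ∧ f * a ^ 2 = j1 * z2 ∧ z2 * z3 = z ∧ i1 * i1 = z ∧
    t * i2 * t⁻¹ = i3 ∧ t * j2 * t⁻¹ = j3 ∧ t * i1 * t⁻¹ = i1 * j1 ∧ t * j1 * t⁻¹ = j1⁻¹ ∧
    d * i2 * d⁻¹ = i3⁻¹ ∧ d * j2 * d⁻¹ = i3 * j3 := by decide +kernel

end M6

end Cfsg.Agent.L3S
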